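import Cfsg.Agent.H354.EPX.Glue
import Cfsg.Agent.H252.EN.TabChkB
import Cfsg.Agent.H364.LieNam

/-!
# S5745, the cells `e6.cross` and `te6.cross` from the rows (helper354)
-/

set_option autoImplicit false

namespace Cfsg.Agent.H354.EPX

open Cfsg Cfsg.Agent.OrdDiv Cfsg.Agent.H902 Cfsg.Agent.H902.Names Cfsg.Agent.H290.ElReg
open Cfsg.Agent.H209.EPX Cfsg.Agent.H542.EPX Cfsg.Agent.H889.Enum Cfsg.Agent.H252.EN Cfsg.Agent.H364.LieNam

/-! ### the orders -/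

theorem e6_real (F : Type) [Field F] [Fintype F] {p f : ℕ} (hp : p.Prime) (hf : 1 ≤ f) (hF : Fintype.card F = p ^ f) :
    Art.Real .E6 p f (Nat.card ↥(Lie.chevE6.group F)) := by
  refine ⟨hp, hf, trivial, ?_⟩
  change Nat.gcd 3 (p ^ f - 1) * _ = (p ^ f) ^ 36 * (_ * _ * _ * _ * _ * _)
  rw [table.{0}.e6 F _ hF]
  ring

theorem te6_real (K : Type) [Field K] [Fintype K] {p f : ℕ} (hp : p.Prime) (hf : 1 ≤ f)
    (hK : Fintype.card K = (p ^ f) ^ 2) : Art.Real .TE6 p f (Nat.card ↥(Lie.twistedE6 K (p ^ f))) := by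
  refine ⟨hp, hf, trivial, ?_⟩
  change Nat.gcd 3 (p ^ f + 1) * _ = (p ^ f) ^ 36 * (_ * _ * _ * _ * _ * _)
  rw [table.{0}.te6 K _ (hp.isPrimePow.pow (by omega)) hK]
  ring

/-! ### the names -/

section names

variable {G : Type} [Group G] {l a : ℕ} {g : Grp}

theorem nos_c2 (h : NoS G (.psp 2 (l ^ a))) (hg : IsLie g (.C 2) l a) : NoS G g := by
  cases hg with
  | psp => exact h
  | oodd _ _ _ hn ho => omega

theorem nos_c3 (h : NoS G (.psp 3 (l ^ a))) (h' : NoS G (.oodd 3 (l ^ a))) (hg : IsLie g (.C 3) l a) : NoS G g := by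
  cases hg with
  | psp => exact h
  | oodd => exact h'

theorem nos_psl {n : ℕ} (h : NoS G (.psl n (l ^ a))) (hg : IsLie g (.L n) l a) : NoS G g := by
  cases hg; exact h

theorem nos_psu {n : ℕ} (h : NoS G (.psu n (l ^ a))) (hg : IsLie g (.U n) l a) : NoS G g := by
  cases hg; exact h

theorem nos_oplus {n : ℕ} (h : NoS G (.oplus n (l ^ a))) (hg : IsLie g (.D n) l a) : NoS G g := by
  cases hg; exact h

theorem nos_g2 (h : NoS G (.g2 (l ^ a))) (hg : IsLie g .G2 l a) : NoS G g := by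
  cases hg; exact h

end names

/-! ### `E₆(q)` -/

/-- the surviving rows of `E₆(2)` -/
structure RowsE6Two (G : Type) [Group G] : Prop where
  u39 : NoS G (.psu 3 9)
  l43 : NoS G (.psl 4 3)
  u43 : NoS G (.psu 4 3)
  g23 : NoS G (.g2 3)
  a10 : NoS G (.alt 10)
  tits : NoTits G

/-- the surviving rows of `E₆(3)` -/
structure RowsE6Three (G : Type) [Group G] : Prop where
  s48 : NoS G (.psp 2 8)
  o82 : NoS G (.oplus 4 2)
  u62 : NoS G (.psu 6 2)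
  g24 : NoS G (.g2 4)

theorem pp_thirtythree {p f : ℕ} (hp : p.Prime) (h : p ^ f = 33) : False := by
  have h3 : 3 ∣ p ^ f := by rw [h]; norm_num
  have h11 : 11 ∣ p ^ f := by rw [h]; norm_num
  have e3 := (Nat.prime_dvd_prime_iff_eq Nat.prime_three hp).1 (Nat.prime_three.dvd_of_dvd_pow h3)
  have e11 := (Nat.prime_dvd_prime_iff_eq (by norm_num) hp).1
    ((by norm_num : Nat.Prime 11).dvd_of_dvd_pow h11)
  omega

theorem cross_e6 (hK : AllK) (A : AutData) (U : UbE)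
    (R2 : ∀ (F : Type) [Field F] [Fintype F] [IsSimpleGroup ↥(Lie.chevE6.group F)], Fintype.card F = 2 →
      RowsE6Two ↥(Lie.chevE6.group F))
    (R3 : ∀ (F : Type) [Field F] [Fintype F] [IsSimpleGroup ↥(Lie.chevE6.group F)], Fintype.card F = 3 →
      RowsE6Three ↥(Lie.chevE6.group F))
    (F : Type) [Field F] [Fintype F] (p : ℕ) [hp : Fact p.Prime] [hc : CharP F p]
    [IsSimpleGroup ↥(Lie.chevE6.group F)] : Cross p ↥(Lie.chevE6.group F) := by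
  obtain ⟨f, hf, hF⟩ := exists_pow hp.out hc
  refine cross_gen hK A U (D := 78) (by norm_num) (fth_e6 F) (Y := .E6) (by simp [Ys]) (e6_real F hp.out hf hF)
    chk_e6 (m := 12) chkA_e6 (fun T _ n i hi he => ?_) chkTi_e6 ?_ ?_ ?_
  · refine (alt_le_e6 (p := p) hi he).trans ?_
    split_ifs <;> omega
  · intro X l a hm hlp hl g hg
    simp only [alE6, List.mem_cons, Prod.mk.injEq, List.not_mem_nil, or_false] at hm
    rcases hm with ⟨⟨rfl, rfl, rfl⟩, hq⟩ | ⟨⟨rfl, rfl, rfl⟩, hq⟩ | ⟨⟨rfl, rfl, rfl⟩, hq⟩ | ⟨⟨rfl, rfl, rfl⟩, hq⟩ |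
      ⟨⟨rfl, rfl, rfl⟩, hq⟩ | ⟨⟨rfl, rfl, rfl⟩, hq⟩ | ⟨⟨rfl, rfl, rfl⟩, hq⟩ | ⟨⟨rfl, rfl, rfl⟩, hq⟩ |
      ⟨⟨rfl, rfl, rfl⟩, hq⟩
    · exact nos_c2 (R3 F (hF.trans hq)).s48 hg
    · exact nos_psu (R2 F (hF.trans hq)).u39 hg
    · exact nos_psl (R2 F (hF.trans hq)).l43 hg
    · exact nos_psu (R2 F (hF.trans hq)).u43 hg
    · exact nos_oplus (R3 F (hF.trans hq)).o82 hg
    · exact nos_psu (R3 F (hF.trans hq)).u62 hg
    · exact (pp_thirtythree hp.out hq).elim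
    · exact nos_g2 (R3 F (hF.trans hq)).g24 hg
    · exact nos_g2 (R2 F (hF.trans hq)).g23 hg
  · intro n hm
    simp only [List.mem_cons, Prod.mk.injEq, List.not_mem_nil, or_false] at hm
    obtain ⟨rfl, hq⟩ := hm
    exact (R2 F (hF.trans hq)).a10
  · intro hm
    simp only [List.mem_cons, Prod.mk.injEq, List.not_mem_nil, or_false, true_and] at hm
    exact (R2 F (hF.trans hm)).tits

/-! ### `²E₆(q)` -/

/-- the surviving rows of `²E₆(2)` -/
structure RowsTE6Two (G : Type) [Group G] : Prop where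
  s63 : NoS G (.psp 3 3)
  o73 : NoS G (.oodd 3 3)
  l43 : NoS G (.psl 4 3)
  u43 : NoS G (.psu 4 3)
  g23 : NoS G (.g2 3)
  a10 : NoS G (.alt 10)
  a11 : NoS G (.alt 11)
  a12 : NoS G (.alt 12)
  tits : NoTits G

/-- the surviving rows of `²E₆(3)` -/
structure RowsTE6Three (G : Type) [Group G] : Prop where
  s48 : NoS G (.psp 2 8)
  o82 : NoS G (.oplus 4 2)
  g24 : NoS G (.g2 4)
  g28 : NoS G (.g2 8)

theorem cross_te6 (hK : AllK) (A : AutData) (U : UbE)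
    (R2 : ∀ (K : Type) [Field K] [Fintype K] [IsSimpleGroup ↥(Lie.twistedE6 K 2)], Fintype.card K = 4 →
      RowsTE6Two ↥(Lie.twistedE6 K 2))
    (R3 : ∀ (K : Type) [Field K] [Fintype K] [IsSimpleGroup ↥(Lie.twistedE6 K 3)], Fintype.card K = 9 →
      RowsTE6Three ↥(Lie.twistedE6 K 3))
    (K : Type) [Field K] [Fintype K] (p q : ℕ) [hp : Fact p.Prime] [hc : CharP K p]
    [IsSimpleGroup ↥(Lie.twistedE6 K q)] (_ : IsPrimePow q) (hKq : Fintype.card K = q ^ 2) :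
    Cross p ↥(Lie.twistedE6 K q) := by
  obtain ⟨f, hf, rfl⟩ := root_eq' hp.out hc (by norm_num) hKq
  refine cross_gen hK A U (D := 78) (by norm_num) (fth_te6 K _) (Y := .TE6) (by simp [Ys])
    (te6_real K hp.out hf hKq) chk_te6 (m := 12) chkA_te6 (fun T _ n i hi he => ?_) chkTi_te6 ?_ ?_ ?_
  · refine (alt_le_te6 hf hKq hi he).trans ?_
    split_ifs <;> omega
  · intro X l a hm hlp hl g hg
    simp only [alTE6, List.mem_cons, Prod.mk.injEq, List.not_mem_nil, or_false] at hm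
    generalize hQ : p ^ f = Q at *
    rcases hm with ⟨⟨rfl, rfl, rfl⟩, rfl⟩ | ⟨⟨rfl, rfl, rfl⟩, rfl⟩ | ⟨⟨rfl, rfl, rfl⟩, rfl⟩ | ⟨⟨rfl, rfl, rfl⟩, rfl⟩ |
      ⟨⟨rfl, rfl, rfl⟩, rfl⟩ | ⟨⟨rfl, rfl, rfl⟩, rfl⟩ | ⟨⟨rfl, rfl, rfl⟩, rfl⟩ | ⟨⟨rfl, rfl, rfl⟩, rfl⟩
    · exact nos_c2 (R3 K hKq).s48 hg
    · exact nos_c3 (R2 K hKq).s63 (R2 K hKq).o73 hg
    · exact nos_psl (R2 K hKq).l43 hg
    · exact nos_psu (R2 K hKq).u43 hg
    · exact nos_oplus (R3 K hKq).o82 hg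
    · exact nos_g2 (R3 K hKq).g24 hg
    · exact nos_g2 (R3 K hKq).g28 hg
    · exact nos_g2 (R2 K hKq).g23 hg
  · intro n hm
    simp only [List.mem_cons, Prod.mk.injEq, List.not_mem_nil, or_false] at hm
    generalize hQ : p ^ f = Q at *
    rcases hm with ⟨rfl, rfl⟩ | ⟨rfl, rfl⟩ | ⟨rfl, rfl⟩
    · exact (R2 K hKq).a10
    · exact (R2 K hKq).a11
    · exact (R2 K hKq).a12
  · intro hm
    simp only [List.mem_cons, Prod.mk.injEq, List.not_mem_nil, or_false, true_and] at hm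
    generalize hQ : p ^ f = Q at *
    subst hm
    exact (R2 K hKq).tits

end Cfsg.Agent.H354.EPX
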